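import Cfsg.Agent.H942.L7.Iface2
import Cfsg.Agent.H834.E8.FixZero
import Cfsg.Agent.S1054

/-!
# S5920, task NOFIX (helper834)
-/

set_option autoImplicit false

namespace Cfsg.Agent.H834.E8

open Cfsg Cfsg.Lie

/-- **Task NOFIX** -/
theorem noFix : Cfsg.Agent.H942.L7.NoFix := ⟨(Cfsg.Agent.S1054.result chevE8 (by simp)).1, fixed_zero⟩

end Cfsg.Agent.H834.E8
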